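import Cfsg.Agent.Helper28.TCO
import Cfsg.Agent.Helper28.SZQ1.Cert
import Cfsg.Agent.Helper28.SZQ1O.Orb1_0
import Cfsg.Agent.Helper28.SZQ1O.Orb2_0

set_option autoImplicit false

namespace Cfsg.Agent.Helper28.SZQ1O

theorem orb1_all : ∀ t, t < 100 → Cfsg.Agent.Helper28.orbPt Cfsg.Agent.Helper28.SZQ1.T 416 Cfsg.Agent.Helper28.SZQ1.subL 100 ov1 op1 otp1 otw1 t = true :=
  Cfsg.Agent.Helper28.pts_of_chunks _ 100 256 1 (by decide) (by decide)
    (Cfsg.Agent.Helper28.allLt_succ _ 0 (Cfsg.Agent.Helper28.allLt_zero _) orb1_0)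

theorem ov1_lt : ov1 0 < 416 := by decide +kernel

theorem orb2_all : ∀ t, t < 315 → Cfsg.Agent.Helper28.orbPt Cfsg.Agent.Helper28.SZQ1.T 416 Cfsg.Agent.Helper28.SZQ1.subL 315 ov2 op2 otp2 otw2 t = true :=
  Cfsg.Agent.Helper28.pts_of_chunks _ 315 256 2 (by decide) (by decide)
    (Cfsg.Agent.Helper28.allLt_succ _ 1 (Cfsg.Agent.Helper28.allLt_succ _ 0 (Cfsg.Agent.Helper28.allLt_zero _) orb2_0) orb2_1)

theorem ov2_lt : ov2 0 < 416 := by decide +kernel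

end Cfsg.Agent.Helper28.SZQ1O
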